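import Mathlib
import Cfsg.Prelude.Def_Characters
import Cfsg.Agent.Characters.Core
import Cfsg.Agent.Characters.Galois
import Cfsg.Agent.Characters.Values
import Cfsg.Agent.S0136

/-!
# Fields of algebraic numbers and automorphisms of the complex field (helper710)

* `mem_of_fixed` : an algebraic number fixed by all automorphisms of `ℂ` fixing a field `F` of
  algebraic numbers lies in `F`.
* `adjoin_eq` : two sets of algebraic numbers fixed by the same automorphisms generate the same
  field.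
* `fix_values_iff` : an automorphism acting as the `m`-th power map on the roots of unity fixes all
  character values at `g` if and only if `g ^ m` is conjugate to `g`.
-/

set_option autoImplicit false

namespace Cfsg.Agent.H710.FieldAut

open Cfsg IntermediateField

/-- An algebraic number fixed by all automorphisms of `ℂ` fixing a field `F` of algebraic numbers
lies in `F`. -/
theorem mem_of_fixed (F : IntermediateField ℚ ℂ) (hF : F ≤ algebraicClosure ℚ ℂ) {z : ℂ}
    (hz : IsAlgebraic ℚ z) (h : ∀ σ : ℂ ≃+* ℂ, (∀ x ∈ F, σ x = x) → σ z = z) : z ∈ F := by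
  let K := algebraicClosure ℚ ℂ
  have hzK : z ∈ K := by
    rw [mem_algebraicClosure_iff]
    exact hz
  have : IsAlgClosure ℚ K := algebraicClosure.isAlgClosure ℚ ℂ
  have : IsGalois ℚ K := IsAlgClosure.isGalois ℚ K
  let F' : IntermediateField ℚ K := F.comap K.val
  have h1 : (⟨z, hzK⟩ : K) ∈ IntermediateField.fixedField (IntermediateField.fixingSubgroup F') := by
    rw [IntermediateField.mem_fixedField_iff]
    intro σ hσ
    obtain ⟨τ, hτ⟩ := Cfsg.Agent.Characters.Galois.exists_ringEquiv_extending (K := K)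
      (σ : K ≃+* K)
    have h2 : τ z = z := by
      apply h
      intro x hx
      have h3 := hτ ⟨x, hF hx⟩
      have h4 : (σ : K ≃+* K) ⟨x, hF hx⟩ = ⟨x, hF hx⟩ := by
        rw [IntermediateField.mem_fixingSubgroup_iff] at hσ
        exact hσ ⟨x, hF hx⟩ hx
      rw [h4] at h3
      exact h3
    have h5 := hτ ⟨z, hzK⟩
    apply Subtype.ext
    have h6 : (algebraMap K ℂ) ⟨z, hzK⟩ = z := rfl
    rw [h6, h2] at h5
    exact h5.symm
  rw [InfiniteGalois.fixedField_fixingSubgroup] at h1
  exact h1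

theorem adjoin_le_algebraicClosure {S : Set ℂ} (hS : ∀ s ∈ S, IsAlgebraic ℚ s) :
    adjoin ℚ S ≤ algebraicClosure ℚ ℂ := by
  rw [adjoin_le_iff]
  intro s hs
  rw [SetLike.mem_coe, mem_algebraicClosure_iff]
  exact hS s hs

/-- An automorphism fixing a set fixes the field it generates. -/
theorem fix_adjoin (σ : ℂ ≃+* ℂ) {S : Set ℂ} (h : ∀ x ∈ S, σ x = x) : ∀ x ∈ adjoin ℚ S, σ x = x := by
  intro x hx
  let A : IntermediateField ℚ ℂ :=
    { carrier := {x | σ x = x}
      mul_mem' := fun {a b} ha hb => by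
        rw [Set.mem_ofPred_eq] at *
        rw [map_mul, ha, hb]
      add_mem' := fun {a b} ha hb => by
        rw [Set.mem_ofPred_eq] at *
        rw [map_add, ha, hb]
      algebraMap_mem' := fun q => by
        rw [Set.mem_ofPred_eq]
        exact map_ratCast σ q
      inv_mem' := fun a ha => by
        rw [Set.mem_ofPred_eq] at *
        rw [map_inv₀, ha] }
  have h1 : adjoin ℚ S ≤ A := adjoin_le_iff.2 h
  exact h1 hx

theorem adjoin_le {S T : Set ℂ} (hS : ∀ s ∈ S, IsAlgebraic ℚ s) (hT : ∀ s ∈ T, IsAlgebraic ℚ s)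
    (h : ∀ σ : ℂ ≃+* ℂ, (∀ x ∈ T, σ x = x) → ∀ x ∈ S, σ x = x) : adjoin ℚ S ≤ adjoin ℚ T := by
  rw [adjoin_le_iff]
  intro s hs
  refine mem_of_fixed _ (adjoin_le_algebraicClosure hT) (hS s hs) fun σ hσ => ?_
  exact h σ (fun x hx => hσ x (subset_adjoin ℚ T hx)) s hs

/-- Two sets of algebraic numbers fixed by the same automorphisms generate the same field. -/
theorem adjoin_eq_iff {S T : Set ℂ} (hS : ∀ s ∈ S, IsAlgebraic ℚ s)
    (hT : ∀ s ∈ T, IsAlgebraic ℚ s) :
    adjoin ℚ S = adjoin ℚ T ↔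
      ∀ σ : ℂ ≃+* ℂ, (∀ x ∈ S, σ x = x) ↔ (∀ x ∈ T, σ x = x) := by
  constructor
  · intro h σ
    constructor
    · intro h1 x hx
      exact fix_adjoin σ h1 x (by rw [h]; exact subset_adjoin ℚ T hx)
    · intro h1 x hx
      exact fix_adjoin σ h1 x (by rw [← h]; exact subset_adjoin ℚ S hx)
  · intro h
    exact le_antisymm (adjoin_le hS hT fun σ h1 => (h σ).2 h1)
      (adjoin_le hT hS fun σ h1 => (h σ).1 h1)

universe u

variable {G : Type u} [Group G] [Finite G]

/-- The set of character values at an element. -/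
def vals (g : G) : Set ℂ := {z : ℂ | ∃ χ : IrrCharacter G, (χ : G → ℂ) g = z}

theorem vals_algebraic (g : G) : ∀ s ∈ vals g, IsAlgebraic ℚ s := by
  rintro s ⟨χ, rfl⟩
  obtain ⟨n, ρ, -, h⟩ := χ.2
  rw [← h]
  have h1 := Cfsg.Agent.Characters.Values.character_isIntegral ρ g
  exact (h1.tower_top (A := ℚ)).isAlgebraic

/-- An automorphism acting as the `m`-th power map on the roots of unity of order dividing `N`
fixes all character values at `g`, `g ^ N = 1`, if and only if `g ^ m` is conjugate to `g`. -/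
theorem fix_vals_iff (σ : ℂ ≃+* ℂ) {N : ℕ} (hN : N ≠ 0) {m : ℕ}
    (hσ : ∀ z : ℂ, z ^ N = 1 → σ z = z ^ m) (g : G) (hg : g ^ N = 1) :
    (∀ x ∈ vals g, σ x = x) ↔ IsConj (g ^ m) g := by
  have key : ∀ χ : IrrCharacter G, σ ((χ : G → ℂ) g) = (χ : G → ℂ) (g ^ m) := by
    intro χ
    obtain ⟨n, ρ, -, h⟩ := χ.2
    rw [← h]
    exact Cfsg.Agent.Characters.Galois.map_character (σ : ℂ →+* ℂ) hN hσ ρ g hg
  rw [Cfsg.Agent.S0136.result]
  constructor
  · intro h χ
    rw [← key]
    exact h _ ⟨χ, rfl⟩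
  · rintro h _ ⟨χ, rfl⟩
    rw [key, h]

end Cfsg.Agent.H710.FieldAut
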