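import Mathlib
import Cfsg.Agent.H710.FieldAut
import Cfsg.Agent.H710.MaxClass

/-!
# Sylow 2-subgroups of maximal class and fields of values (helper710)
-/

set_option autoImplicit false

namespace Cfsg.Agent.H710.ClassField

open Cfsg Subgroup FieldAut MaxClass IntermediateField

universe u

theorem sigma_fix_iff (σ : ℂ ≃+* ℂ) {ζ ε : ℂ} (hζ : ζ ≠ 0) (hε : σ ε = ε) {m : ℕ}
    (hσ : σ ζ = ζ ^ m) : σ (ζ + ε * ζ⁻¹) = ζ + ε * ζ⁻¹ ↔ ζ ^ m = ζ ∨ ζ ^ m = ε * ζ⁻¹ := by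
  rw [map_add, map_mul, map_inv₀, hε, hσ]
  set w := ζ ^ m with hw
  have hw0 : w ≠ 0 := pow_ne_zero m hζ
  have key : w * (w + ε * w⁻¹ - (ζ + ε * ζ⁻¹)) = (w - ζ) * (w - ε * ζ⁻¹) := by
    field_simp
    ring
  constructor
  · intro h
    have h1 : (w - ζ) * (w - ε * ζ⁻¹) = 0 := by rw [← key, h]; ring
    rcases mul_eq_zero.1 h1 with h2 | h2
    · left; linear_combination h2
    · right; linear_combination h2
  · intro h
    have h1 : w * (w + ε * w⁻¹ - (ζ + ε * ζ⁻¹)) = 0 := by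
      rw [key]
      rcases h with h | h
      · rw [h]; ring
      · rw [h]; ring
    rcases mul_eq_zero.1 h1 with h2 | h2
    · exact absurd h2 hw0
    · linear_combination h2

theorem algebraic_zeta {ζ ε : ℂ} {N : ℕ} (hN : N ≠ 0) (hζ : ζ ^ N = 1) (hε : ε = 1 ∨ ε = -1) :
    ∀ s ∈ ({ζ + ε * ζ⁻¹} : Set ℂ), IsAlgebraic ℚ s := by
  intro s hs
  rw [Set.mem_singleton_iff] at hs
  have h1 : IsIntegral ℚ ζ := IsIntegral.of_pow (Nat.pos_of_ne_zero hN) (by
    rw [hζ]; exact isIntegral_one)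
  have h2 : IsAlgebraic ℚ ζ := h1.isAlgebraic
  have h3 : IsAlgebraic ℚ ε := by
    rcases hε with h | h <;> rw [h]
    · exact isAlgebraic_one
    · exact isAlgebraic_one.neg
  rw [hs]
  exact h2.add (h3.mul h2.inv)

variable {G : Type u} [Group G] [Finite G]

/-- From `|P : P'| = 4` to the field of values. -/
theorem forward (P : Sylow 2 G) (n : ℕ) (hn : 3 ≤ n) (hP : Nat.card P = 2 ^ n) (ζ : ℂ)
    (hζ : IsPrimitiveRoot ζ (2 ^ (n - 1))) (h4 : (commutator ↥P).index = 4) :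
    ∃ g : G, g ∈ (P : Subgroup G) ∧ 2 ∣ (centralizer ({g} : Set G)).index ∧
      ∃ ε : ℂ, (ε = 1 ∨ ε = -1) ∧ adjoin ℚ (vals g) = adjoin ℚ ({ζ + ε * ζ⁻¹} : Set ℂ) := by
  obtain ⟨c, y, j, hco, hall, hyc, hj, hj4, hjn⟩ := structure_of_index_four hn hP h4
  have hcoG : orderOf (c : G) = 2 ^ (n - 1) := by rw [Subgroup.orderOf_coe]; exact hco
  have hζord : orderOf ζ = 2 ^ (n - 1) := hζ.eq_orderOf.symm
  have hζ0 : ζ ≠ 0 := hζ.ne_zero (by positivity)
  have hjG : (y : G) * c * (y : G)⁻¹ = (c : G) ^ j := by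
    have := congrArg Subtype.val hj
    simpa using this
  -- conjugation by elements of `P`
  have hconj : ∀ u : P, (u : G) * c * (u : G)⁻¹ = c ∨ (u : G) * c * (u : G)⁻¹ = (c : G) ^ j := by
    intro u
    rcases hall u with hu | hu
    · left
      obtain ⟨i, rfl⟩ := mem_zpowers_iff.1 hu
      rw [Subgroup.coe_zpow, ((Commute.refl (c : G)).zpow_left i).eq]; group
    · right
      obtain ⟨i, hi⟩ := mem_zpowers_iff.1 hu
      have hu2 : (u : G) = (c : G) ^ i * y := by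
        have : u = c ^ i * y := by rw [hi]; group
        rw [this]; simp
      rw [hu2]
      have h1 : (c : G) ^ i * y * c * ((c : G) ^ i * y)⁻¹ =
          (c : G) ^ i * ((y : G) * c * (y : G)⁻¹) * ((c : G) ^ i)⁻¹ := by group
      rw [h1, hjG, (((Commute.refl (c : G)).zpow_left i).pow_right j).eq]; group
  have hPN : (P : Subgroup G) ≤ normalizer (zpowers (c : G) : Set G) := by
    intro u hu
    apply mem_normalizer_zpowers
    rcases hconj ⟨u, hu⟩ with h | h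
    · rw [h]; exact mem_zpowers _
    · rw [h]; exact pow_mem (mem_zpowers _) _
  -- `c ^ j ≠ c`
  have hjc : (c : G) ^ j ≠ c := by
    intro h
    have h1 : (c : G) ^ j = (c : G) ^ 1 := by rw [h, pow_one]
    rw [pow_eq_pow_iff_modEq, hcoG] at h1
    have h2 : j ≡ 1 [MOD 4] := h1.of_dvd (by
      have : (4 : ℕ) = 2 ^ 2 := by norm_num
      rw [this]; exact pow_dvd_pow 2 (by omega))
    have h3 := (Nat.modEq_iff_dvd.1 h2)
    omega
  obtain ⟨s, hs⟩ := hjn
  set ε : ℂ := (-1) ^ s with hε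
  have hε1 : ε = 1 ∨ ε = -1 := neg_one_pow_eq_or ℂ s
  have hhalf : ζ ^ (2 ^ (n - 2)) = -1 := by
    have h1 : (ζ ^ (2 ^ (n - 2))) ^ 2 = 1 := by
      rw [← pow_mul, ← pow_succ]
      have : n - 2 + 1 = n - 1 := by omega
      rw [this]
      exact hζ.pow_eq_one
    have h0 : (ζ ^ (2 ^ (n - 2)) - 1) * (ζ ^ (2 ^ (n - 2)) + 1) = 0 := by linear_combination h1
    rcases mul_eq_zero.1 h0 with h2' | h2'
    · exfalso
      have h2 : ζ ^ (2 ^ (n - 2)) = 1 := by linear_combination h2'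
      have h3 := orderOf_dvd_of_pow_eq_one h2
      rw [hζord] at h3
      have h4 := (Nat.pow_dvd_pow_iff_le_right (by norm_num)).1 h3
      omega
    · linear_combination h2'
  have hζj : ζ ^ j = ε * ζ⁻¹ := by
    rw [eq_mul_inv_iff_mul_eq₀ hζ0, ← pow_succ, hs, pow_mul, hhalf]
  refine ⟨c, c.2, two_dvd_index_centralizer hcoG (hPN y.2) (by rw [hjG]; exact hjc), ε, hε1, ?_⟩
  have hN : (2 ^ n : ℕ) ≠ 0 := by positivity
  have hc1 : (c : G) ^ (2 ^ n) = 1 := by
    rw [← orderOf_dvd_iff_pow_eq_one, hcoG]; exact pow_dvd_pow 2 (by omega)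
  have hζ1 : ζ ^ (2 ^ n) = 1 := by
    rw [← orderOf_dvd_iff_pow_eq_one, hζord]; exact pow_dvd_pow 2 (by omega)
  rw [adjoin_eq_iff (vals_algebraic _) (algebraic_zeta hN hζ1 hε1)]
  intro σ
  obtain ⟨m, hm, hσ⟩ := Cfsg.Agent.Characters.Galois.exists_pow_of_ringHom (σ : ℂ →+* ℂ) hN
  have hσ' : ∀ z : ℂ, z ^ 2 ^ n = 1 → σ z = z ^ m := hσ
  rw [fix_vals_iff σ hN hσ' (c : G) hc1]
  have hεσ : σ ε = ε := by rcases hε1 with h | h <;> rw [h] <;> simp
  have h5 : (∀ x ∈ ({ζ + ε * ζ⁻¹} : Set ℂ), σ x = x) ↔ σ (ζ + ε * ζ⁻¹) = ζ + ε * ζ⁻¹ := by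
    simp
  rw [h5, sigma_fix_iff σ hζ0 hεσ (hσ' ζ hζ1), ← hζj]
  have hpow : ∀ k : ℕ, ζ ^ m = ζ ^ k ↔ (c : G) ^ m = (c : G) ^ k := by
    intro k
    rw [pow_eq_pow_iff_modEq, hcoG, hζ.eq_orderOf, hζord]
    rw [← hζord]
    exact (hζ.isOfFinOrder (by positivity)).pow_eq_pow_iff_modEq
  have h6 : ζ ^ m = ζ ↔ (c : G) ^ m = c := by
    have := hpow 1
    rwa [pow_one, pow_one] at this
  rw [h6, hpow j]
  constructor
  · intro h
    obtain ⟨t, ht⟩ := isConj_iff.1 h.symm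
    obtain ⟨u, hu, hut⟩ := exists_mem_sylow_conj P (c : G) hcoG hPN t (by
      rw [ht]; exact pow_mem (mem_zpowers _) _)
    rw [ht] at hut
    rcases hconj ⟨u, hu⟩ with h1 | h1
    · left; rw [← hut]; exact h1
    · right; rw [← hut]; exact h1
  · rintro (h | h)
    · rw [h]
    · rw [h]
      exact (isConj_iff.2 ⟨(y : G), hjG⟩).symm

/-- From the field of values to `|P : P'| = 4`. -/
theorem backward (P : Sylow 2 G) (n : ℕ) (hn : 3 ≤ n) (hP : Nat.card P = 2 ^ n) (ζ : ℂ)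
    (hζ : IsPrimitiveRoot ζ (2 ^ (n - 1))) (g : G) (hg : g ∈ (P : Subgroup G))
    (h2 : 2 ∣ (centralizer ({g} : Set G)).index) (ε : ℂ) (hε1 : ε = 1 ∨ ε = -1)
    (had : adjoin ℚ (vals g) = adjoin ℚ ({ζ + ε * ζ⁻¹} : Set ℂ)) : (commutator ↥P).index = 4 := by
  have hN : (2 ^ n : ℕ) ≠ 0 := by positivity
  have hζord : orderOf ζ = 2 ^ (n - 1) := hζ.eq_orderOf.symm
  have hζ0 : ζ ≠ 0 := hζ.ne_zero (by positivity)
  have hζ1 : ζ ^ (2 ^ n) = 1 := by
    rw [← orderOf_dvd_iff_pow_eq_one, hζord]; exact pow_dvd_pow 2 (by omega)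
  -- `P` does not centralize `g`
  have hPC : ¬ (P : Subgroup G) ≤ centralizer ({g} : Set G) := by
    intro h
    exact P.not_dvd_index (h2.trans (index_dvd_of_le h))
  let c : P := ⟨g, hg⟩
  have hcent : ∃ y : P, y * c * y⁻¹ ≠ c := by
    by_contra hcon
    push Not at hcon
    apply hPC
    intro u hu
    rw [mem_centralizer_singleton_iff]
    have h1 := congrArg Subtype.val (hcon ⟨u, hu⟩)
    have h3 : u * g * u⁻¹ = g := h1
    rwa [mul_inv_eq_iff_eq_mul] at h3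
  by_cases hn3 : n = 3
  · subst hn3
    apply index_four_of_card_eight (by
      have h3 : Nat.card ↥P = 2 ^ 3 := hP
      rw [h3]; norm_num)
    obtain ⟨y, hy⟩ := hcent
    refine ⟨y, c, fun h => hy ?_⟩
    rw [h]; simp
  -- `n ≥ 4`
  have hn4 : 4 ≤ n := by omega
  have hcard : orderOf c ∣ 2 ^ n := by rw [← hP]; exact orderOf_dvd_natCard c
  obtain ⟨m, hm, hcm⟩ := (Nat.dvd_prime_pow Nat.prime_two).1 hcard
  have hgord : orderOf g = 2 ^ m := by rw [← hcm, ← Subgroup.orderOf_coe]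
  have hg1 : g ^ (2 ^ n) = 1 := by
    rw [← orderOf_dvd_iff_pow_eq_one, hgord]; exact pow_dvd_pow 2 hm
  rw [adjoin_eq_iff (vals_algebraic _) (algebraic_zeta hN hζ1 hε1)] at had
  have hkey : ∀ k : ℕ, k.Coprime (2 ^ n) → IsConj (g ^ k) g → ζ ^ k = ζ ∨ ζ ^ k = ε * ζ⁻¹ := by
    intro k hk hc
    obtain ⟨σ, hσ⟩ := Cfsg.Agent.Characters.Galois.exists_ringEquiv_complex hN hk
    have h3 := (had σ).1 ((fix_vals_iff σ hN hσ g hg1).2 hc) _ rfl
    have hεσ : σ ε = ε := by rcases hε1 with h | h <;> rw [h] <;> simp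
    exact (sigma_fix_iff σ hζ0 hεσ (hσ ζ hζ1)).1 h3
  have hε2 : ε ^ 2 = 1 := by rcases hε1 with h | h <;> rw [h] <;> norm_num
  -- `n - 1 ≤ m`
  have hm1 : n - 1 ≤ m := by
    by_contra hlt
    push Not at hlt
    have hcop : (1 + 2 ^ (n - 2)).Coprime (2 ^ n) := by
      apply Nat.Coprime.pow_right
      rw [Nat.coprime_comm, Nat.Prime.coprime_iff_not_dvd Nat.prime_two]
      have : 2 ∣ 2 ^ (n - 2) := dvd_pow_self 2 (by omega)
      omega
    have hgk : g ^ (1 + 2 ^ (n - 2)) = g := by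
      have h3 : g ^ (2 ^ (n - 2)) = 1 := by
        rw [← orderOf_dvd_iff_pow_eq_one, hgord]; exact pow_dvd_pow 2 (by omega)
      rw [pow_add, pow_one, h3, mul_one]
    have hhalf : ζ ^ (2 ^ (n - 2)) ≠ 1 := by
      intro h3
      have h4 := orderOf_dvd_of_pow_eq_one h3
      rw [hζord] at h4
      have h5 := (Nat.pow_dvd_pow_iff_le_right (by norm_num)).1 h4
      omega
    have hhalf2 : (ζ ^ (2 ^ (n - 2))) ^ 2 = 1 := by
      rw [← pow_mul, ← pow_succ]
      have : n - 2 + 1 = n - 1 := by omega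
      rw [this]
      exact hζ.pow_eq_one
    rcases hkey _ hcop (by rw [hgk]) with h3 | h3
    · rw [pow_add, pow_one] at h3
      apply hhalf
      have h4 : ζ * (ζ ^ (2 ^ (n - 2)) - 1) = 0 := by linear_combination h3
      rcases mul_eq_zero.1 h4 with h5 | h5
      · exact absurd h5 hζ0
      · linear_combination h5
    · rw [pow_add, pow_one, eq_mul_inv_iff_mul_eq₀ hζ0] at h3
      have h4 : ζ ^ 4 = 1 := by
        have h5 : (ζ * ζ ^ (2 ^ (n - 2)) * ζ) ^ 2 = ε ^ 2 := by rw [h3]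
        rw [hε2] at h5
        have h6 : (ζ * ζ ^ (2 ^ (n - 2)) * ζ) ^ 2 = ζ ^ 4 * (ζ ^ (2 ^ (n - 2))) ^ 2 := by ring
        rw [h6, hhalf2, mul_one] at h5
        exact h5
      have h5 := orderOf_dvd_of_pow_eq_one h4
      rw [hζord, show (4 : ℕ) = 2 ^ 2 by norm_num] at h5
      have h6 := (Nat.pow_dvd_pow_iff_le_right (by norm_num)).1 h5
      omega
  -- `m = n - 1`
  obtain ⟨y, hy⟩ := hcent
  have hmn : m = n - 1 := by
    by_contra hne
    have hmn : m = n := by omega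
    have htop : zpowers c = ⊤ := by
      have h3 : Nat.card ↥P = 2 ^ n := hP
      rw [← Subgroup.card_eq_iff_eq_top, Nat.card_zpowers, hcm, h3, hmn]
    apply hy
    have h3 : y ∈ zpowers c := by rw [htop]; exact mem_top _
    obtain ⟨i, rfl⟩ := mem_zpowers_iff.1 h3
    rw [((Commute.refl c).zpow_left i).eq]; group
  rw [hmn] at hcm hgord
  have hidx : (zpowers c).index = 2 := by
    have := index_zpowers_pow hcm hP (by omega) 0 (by omega)
    simpa using this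
  have hyc : y ∉ zpowers c := by
    intro h3
    apply hy
    obtain ⟨i, rfl⟩ := mem_zpowers_iff.1 h3
    rw [((Commute.refl c).zpow_left i).eq]; group
  have hall : ∀ u : P, u ∈ zpowers c ∨ u * y⁻¹ ∈ zpowers c := by
    intro u
    by_cases hu : u ∈ zpowers c
    · exact Or.inl hu
    · right
      exact (mul_mem_iff_of_index_two hidx (a := u) (b := y⁻¹)).2
        (by constructor
            · intro h; exact absurd h hu
            · intro h; exact absurd (inv_mem_iff.1 h) hyc)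
  have hCn : (zpowers c).Normal := normal_of_index_eq_two hidx
  have hyc2 : y * c * y⁻¹ ∈ zpowers c := hCn.conj_mem c (mem_zpowers c) y
  obtain ⟨j, hj⟩ : ∃ j : ℕ, c ^ j = y * c * y⁻¹ := by
    classical
    rw [mem_zpowers_iff_mem_range_orderOf, Finset.mem_image] at hyc2
    obtain ⟨j, -, hj⟩ := hyc2
    exact ⟨j, hj⟩
  have hodd : ¬ 2 ∣ j := by
    intro h2j
    have h3 : orderOf (c ^ j) = orderOf c := by
      rw [hj]
      exact orderOf_injective (MulAut.conj y).toMonoidHom (MulAut.conj y).injective c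
    have h5 : (c ^ j) ^ (2 ^ (n - 2)) = 1 := by
      obtain ⟨i, rfl⟩ := h2j
      rw [← pow_mul]
      have h6 : 2 * i * 2 ^ (n - 2) = 2 ^ (n - 1) * i := by
        have : 2 ^ (n - 1) = 2 * 2 ^ (n - 2) := by rw [← pow_succ']; congr 1; omega
        rw [this]; ring
      rw [h6, pow_mul, ← hcm, pow_orderOf_eq_one, one_pow]
    have h6 := orderOf_dvd_of_pow_eq_one h5
    rw [h3, hcm] at h6
    have h7 := (Nat.pow_dvd_pow_iff_le_right (by norm_num)).1 h6
    omega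
  have hcop : j.Coprime (2 ^ n) := by
    apply Nat.Coprime.pow_right
    rw [Nat.coprime_comm, Nat.Prime.coprime_iff_not_dvd Nat.prime_two]
    exact hodd
  have hjG : (y : G) * g * (y : G)⁻¹ = g ^ j := by
    have := congrArg Subtype.val hj.symm
    simpa using this
  refine index_four_of_structure hn4 hP hcm hall hj.symm ?_
  rcases hkey j hcop (isConj_iff.2 ⟨(y : G), hjG⟩).symm with h3 | h3
  · exfalso
    apply hy
    have h4 : ζ ^ j = ζ ^ 1 := by rw [h3, pow_one]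
    rw [(hζ.isOfFinOrder (by positivity)).pow_eq_pow_iff_modEq, hζord, ← hcm] at h4
    have h5 : c ^ j = c ^ 1 := pow_eq_pow_iff_modEq.2 h4
    rw [← hj, h5, pow_one]
  · rw [eq_mul_inv_iff_mul_eq₀ hζ0, ← pow_succ] at h3
    have h4 : ζ ^ ((j + 1) * 2) = 1 := by rw [pow_mul, h3, hε2]
    have h5 := orderOf_dvd_of_pow_eq_one h4
    rw [hζord] at h5
    have h6 : 2 ^ 3 ∣ (j + 1) * 2 := (pow_dvd_pow 2 (by omega)).trans h5
    omega

end Cfsg.Agent.H710.ClassField
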