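import Cfsg.Agent.H710.LtwoSL2
import Cfsg.Agent.ETable.ExcTorus
import Cfsg.Agent.ClassificationK.GTwoChev

/-!
# `L2` for `G₂(q)`, `q ≥ 4` even (helper710)

* `q ≡ 1 (mod 3)` : `SL₃(q)` generated by the long root groups, centralised by `h_α(ω)`, `α` short: order `12`;
* `q ≥ 8` : the long root involution and the short `SL₂(q)`.
-/

set_option autoImplicit false

namespace Cfsg.Agent.H710.GTwo

open Cfsg Cfsg.Lie
open Cfsg.Agent.ChevalleyStructure Cfsg.Agent.ChevalleyStructure.Elts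
open Cfsg.Agent.ChevalleyStructure.LaurentWord
open Cfsg.Agent.ChevalleyStructure.LaurentNH
open Cfsg.Agent.ChevalleyStructure.SL2Rep
open Cfsg.Agent.ChevalleyStructure.SL2Hom
open Cfsg.Agent.ClassificationK.GTwoChev

variable {F : Type*} [Field F]

theorem check_long : checkEq 14 12 (col chevG2) [(6, 1, 1, 0), (10, 1, 0, 1)] [(10, 1, 0, 1), (6, 1, 1, 0), (11, 1, 1, 1)] = true
    ∨ checkEq 14 12 (col chevG2) [(6, 1, 1, 0), (10, 1, 0, 1)] [(10, 1, 0, 1), (6, 1, 1, 0), (11, -1, 1, 1)] = true := by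
  decide +kernel

theorem hG2 : InList chevG2 := by simp [InList]

variable [CharP F 2]

/-- `q ≥ 8` -/
theorem l2_big [Fintype F] (h8 : 8 ≤ Fintype.card F) : L2 ↥(chevG2.group F) := by
  have h11 : ph11 F (up 1) ≠ 1 := by
    intro h
    have h1 := congrArg mat h
    rw [m11u, mat_one, x_eq_one_iff hG2 (by decide)] at h1
    exact one_ne_zero h1
  have h7 : ph7 F (up 1) ≠ 1 := by
    intro h
    have h1 := congrArg mat h
    rw [m7u, mat_one, x_eq_one_iff hG2 (by decide)] at h1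
    exact one_ne_zero h1
  have hsq : ph11 F (up 1) ^ 2 = 1 := by
    rw [pow_two, ← map_mul]
    have : (up (1 : F) : Matrix.SpecialLinearGroup (Fin 2) F) * up 1 = 1 := by
      apply Subtype.ext
      change (!![1, (1 : F); 0, 1] * !![1, (1 : F); 0, 1] : Matrix (Fin 2) (Fin 2) F) = 1
      rw [Matrix.mul_fin_two]
      have h2 : (1 : F) + 1 = 0 := CharTwo.add_self_eq_zero 1
      ext i j
      fin_cases i <;> fin_cases j <;> simp [h2]
    rw [this, map_one]
  have hord : orderOf (ph11 F (up 1)) = 2 := orderOf_eq_prime hsq h11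
  exact SLTwo.l2_of_comp h8 (ph7 F) h7 (x := ph11 F (up 1)) (by rw [hord]; norm_num) (by rw [hord])
    (fun g => comm _ g)

/-- the root elements as elements of the group -/
noncomputable def xx (F : Type*) [Field F] (r : ℕ) (t : F) : ↥(chevG2.group F) := ⟨xG hG2 r t, xG_mem_group hG2 r t⟩

omit [CharP F 2] in
theorem mat_xx (r : ℕ) (t : F) : mat (xx F r t) = chevG2.x F r t := rfl

omit [CharP F 2] in
theorem long_comm : ∃ c : F, c ≠ 0 ∧ xx F 6 1 * xx F 10 1 = xx F 10 1 * xx F 6 1 * xx F 11 c := by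
  have key : ∀ e : ℤ, ((e : F) ≠ 0) → checkEq 14 12 (col chevG2) [(6, 1, 1, 0), (10, 1, 0, 1)]
      [(10, 1, 0, 1), (6, 1, 1, 0), (11, e, 1, 1)] = true →
      ∃ c : F, c ≠ 0 ∧ xx F 6 1 * xx F 10 1 = xx F 10 1 * xx F 6 1 * xx F 11 c := by
    intro e he h
    refine ⟨(e : F), he, ?_⟩
    apply mat_injective
    have h1 := wordMat_eq_of_checkEq chevG2 colsOK (one_ne_zero (α := F)) (one_ne_zero (α := F)) h
    simp only [evW, List.map_cons, List.map_nil, ChevalleyDatum.wordMat, List.prod_cons, List.prod_nil,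
      mul_one, evM, one_zpow, Int.cast_one] at h1
    rw [mat_mul, mat_mul, mat_mul, mat_xx, mat_xx, mat_xx, h1, mul_assoc]
  rcases check_long with h | h
  · exact key 1 (by simp) h
  · exact key (-1) (by simp) h

omit [CharP F 2] in
theorem xx_add (r : ℕ) (s t : F) : xx F r s * xx F r t = xx F r (s + t) := Subtype.ext (xG_add hG2 r s t)

omit [CharP F 2] in
theorem xx_zero (r : ℕ) : xx F r (0 : F) = 1 := Subtype.ext (xG_zero hG2 r)

theorem xx_sq (r : ℕ) (t : F) : xx F r t * xx F r t = 1 := by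
  rw [xx_add, CharTwo.add_self_eq_zero, xx_zero]

omit [CharP F 2] in
theorem xx_ne (r : ℕ) (hr : r < chevG2.nroots) {t : F} (ht : t ≠ 0) : xx F r t ≠ 1 := by
  intro h
  have h1 : xG hG2 r t = 1 := congrArg Subtype.val h
  rw [xG_eq_one_iff hG2 hr] at h1
  exact ht h1

/-- an element of order `4` -/
theorem order_four : orderOf (xx F 6 1 * xx F 10 1) = 4 := by
  obtain ⟨c, hc, h⟩ := long_comm (F := F)
  have h2 : (xx F 6 1 * xx F 10 1) * (xx F 6 1 * xx F 10 1) = xx F 11 c := by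
    calc (xx F 6 1 * xx F 10 1) * (xx F 6 1 * xx F 10 1) =
        (xx F 6 1 * xx F 10 1) * (xx F 10 1 * xx F 6 1 * xx F 11 c) := by rw [← h]
      _ = xx F 6 1 * (xx F 10 1 * xx F 10 1) * xx F 6 1 * xx F 11 c := by group
      _ = xx F 11 c := by rw [xx_sq, mul_one, xx_sq, one_mul]
  have h3 : (xx F 6 1 * xx F 10 1) ^ 2 ≠ 1 := by
    rw [pow_two, h2]
    exact xx_ne 11 (by decide) hc
  have h4 : (xx F 6 1 * xx F 10 1) ^ 4 = 1 := by
    rw [show (4 : ℕ) = 2 * 2 by norm_num, pow_mul, pow_two (xx F 6 1 * xx F 10 1), h2, pow_two, xx_sq]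
  exact orderOf_eq_prime_pow (p := 2) (n := 1) (by simpa using h3) (by simpa using h4)

/-- `3 ∣ q - 1` -/
theorem l2_three [Fintype F] (h3 : 3 ∣ Fintype.card F - 1) : L2 ↥(chevG2.group F) := by
  classical
  obtain ⟨ω, hω⟩ : ∃ ω : Fˣ, orderOf ω = 3 :=
    haveI : Fact (Nat.Prime 3) := ⟨Nat.prime_three⟩
    exists_prime_orderOf_dvd_card 3 (by rwa [Fintype.card_units])
  have hw3 : (ω : F) ^ 3 = 1 := by
    have h := pow_orderOf_eq_one ω
    rw [hω] at h
    rw [← Units.val_pow_eq_pow_val, h, Units.val_one]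
  have hw1 : (ω : F) ≠ 1 := by
    intro h
    have h1 : ω = 1 := Units.ext h
    rw [h1, orderOf_one] at hω
    norm_num at hω
  have h0 : (0 : ℕ) < chevG2.rank := by decide
  let t : ↥(chevG2.group F) := ⟨hG hG2 (chevG2.simple 0) (ω : F), hG_mem_group hG2 _ _⟩
  have ht3 : t ^ 3 = 1 := by
    apply Subtype.ext
    change (hG hG2 (chevG2.simple 0) (ω : F)) ^ 3 = 1
    rw [pow_succ, pow_two, ETable.Exc.hG_mul hG2 h0 ω.ne_zero ω.ne_zero,
      ETable.Exc.hG_mul hG2 h0 (mul_ne_zero ω.ne_zero ω.ne_zero) ω.ne_zero]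
    have : (ω : F) * ω * ω = 1 := by rw [← hw3]; ring
    rw [this, ETable.Exc.hG_one hG2 h0]
  have ht1 : t ≠ 1 := by
    intro h
    have h1 : hG hG2 (chevG2.simple 0) (ω : F) = 1 := congrArg Subtype.val h
    have h2 := ETable.Exc.hG_xG hG2 h0 (s := 7) (by decide) ω.ne_zero 1
    rw [h1, one_mul, mul_one] at h2
    have h3' := xG_injective hG2 (by decide) h2
    have h4 : chevG2.cartan 0 7 = 2 := by decide +kernel
    rw [h4, mul_one] at h3'
    have h5 : (ω : F) ^ 2 = 1 := by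
      rw [← zpow_natCast]
      exact h3'.symm
    apply hw1
    have h6 : (ω : F) ^ 3 = ω ^ 2 * ω := by ring
    rw [hw3, h5, one_mul] at h6
    exact h6.symm
  have hto : orderOf t = 3 :=
    haveI : Fact (Nat.Prime 3) := ⟨Nat.prime_three⟩
    orderOf_eq_prime ht3 ht1
  have c6 : t * xx F 6 1 = xx F 6 1 * t := by
    apply Subtype.ext
    refine ETable.Exc.hG_comm_xG hG2 h0 (s := 6) (by decide) ω.ne_zero ?_ 1
    rw [show chevG2.cartan 0 6 = -3 by decide +kernel, zpow_neg]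
    rw [show ((ω : F) ^ (3 : ℤ)) = (ω : F) ^ (3 : ℕ) from zpow_natCast _ 3, hw3, inv_one]
  have c10 : t * xx F 10 1 = xx F 10 1 * t := by
    apply Subtype.ext
    refine ETable.Exc.hG_comm_xG hG2 h0 (s := 10) (by decide) ω.ne_zero ?_ 1
    rw [show chevG2.cartan 0 10 = 3 by decide +kernel]
    rw [show ((ω : F) ^ (3 : ℤ)) = (ω : F) ^ (3 : ℕ) from zpow_natCast _ 3, hw3]
  have hc : Commute t (xx F 6 1 * xx F 10 1) := Commute.mul_right c6 c10
  exact L2.of_four (x := xx F 6 1 * xx F 10 1) (y := t) hc.symm (by rw [order_four]; norm_num)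
    (by rw [order_four]) (by rw [hto]; decide) ht1

/-- **`G₂(q)`, `q ≥ 4` even.** -/
theorem l2 [Fintype F] (h3 : 3 ≤ Fintype.card F) : L2 ↥(chevG2.group F) := by
  obtain ⟨f, hf0, hf⟩ := SLTwo.card_eq F
  by_cases h8 : 8 ≤ Fintype.card F
  · exact l2_big h8
  · have h2 : f = 2 := by
      have h1 : f < 3 := by
        by_contra hcon
        push Not at hcon
        have := Nat.pow_le_pow_right (show 1 ≤ 2 by norm_num) hcon
        omega
      interval_cases f <;> omega
    subst h2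
    exact l2_three (by rw [hf]; norm_num)

end Cfsg.Agent.H710.GTwo
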